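import Cfsg.Agent.H895.RG.Mn
import Cfsg.Agent.H272.RG.FiZ

/-!
# S3509, row `Fi22` (helper895, counting piece by helper272)
-/

set_option autoImplicit false

namespace Cfsg.Agent.H895.RG.Fi22

open Cfsg Cfsg.Agent.H106.RC Cfsg.Agent.H873.RG Cfsg.Agent.H973.RG

theorem killD : KillD :=
  fun hE e _ _ hz hz1 hh h3 hc => Cfsg.Agent.H272.RG.FiZ.kill_z3D hE e hz hz1 hh h3 hc

theorem rc_fi22 {S : Type} [Group S] [Finite S] (hS : NSA S) (hP : Spor.IsoFi22 S) (hIH : IHx (Nat.card S)) : RC S := by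
  obtain ⟨f⟩ := hP
  have hIH' : IHx (Nat.card Spor.Fi22) := by rwa [Nat.card_congr f.toEquiv] at hIH
  refine rc_of_noCov hS.simple hS.ncomm ?_
  intro G _ _ Ω _ _ _ N hE e0 ι _ x r hx hc _
  exact main Cfsg.Agent.H272.RG.FiZ.sqInner killD hE hE.norm (e0.trans f) hIH' hx hc

/-- **the row `Fi22`** -/
theorem row_fi22 : RowX (fun S _ => Spor.IsoFi22 S) :=
  fun _ _ _ hS hP hIH => rc_fi22 hS hP hIH

end Cfsg.Agent.H895.RG.Fi22
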