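import Cfsg.Agent.H895.RG.Tw

/-!
# S3509, row `Fi22`: the case analysis (helper895)

`dead_fix` : the odd members of a cover do not fix a transposition;
`main` : no cover, given the counting rule for `{z, 3D}` (helper272).
-/

set_option autoImplicit false
set_option linter.unusedSectionVars false

namespace Cfsg.Agent.H895.RG.Fi22

open Cfsg Cfsg.Spor Cfsg.Agent.H106.RC Cfsg.Agent.H873.RG Cfsg.Agent.H123.Cls Cfsg.Agent.H123.Cls.FiDat
open Cfsg.Agent.Lib.BitNet (Aut)
open Cfsg.Agent.H973.RG (SqInner prime_mem)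
open Cfsg.Agent.H494.F22 (rho rho_injective)
open Cfsg.Agent.H494.F22.Row (row)

/-- the product of a commuting family of elements of different prime orders -/
theorem exists_prodc {S : Type*} [Group S] {ι : Type*} [Fintype ι] {x : ι → S} {r : ι → ℕ} (hx : PF x r) :
    ∃ g ∈ Subgroup.closure (Set.range x), orderOf g = ∏ i, r i ∧ ∀ i, x i ∈ Subgroup.zpowers g := by
  classical
  have key : ∀ s : Finset ι, ∃ g ∈ Subgroup.closure (Set.range x), orderOf g = ∏ i ∈ s, r i ∧
      ∀ i ∈ s, x i ∈ Subgroup.zpowers g := by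
    intro s
    induction s using Finset.induction_on with
    | empty => exact ⟨1, one_mem _, by simp, by simp⟩
    | insert i s hi ih =>
      obtain ⟨g, hg, ho, hm⟩ := ih
      have hcomm : Commute (x i) g := by
        refine Subgroup.closure_induction (p := fun g _ => Commute (x i) g) ?_ (Commute.one_right _)
          (fun a b _ _ ha hb => ha.mul_right hb) (fun a _ ha => ha.inv_right) hg
        rintro _ ⟨j, rfl⟩
        exact hx.comm i j
      have hoi : orderOf (x i) = r i := by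
        have := Fact.mk (hx.prime i)
        exact orderOf_eq_prime (hx.pow i) (hx.ne i)
      have hcop : Nat.Coprime (orderOf (x i)) (orderOf g) := by
        rw [hoi, ho]
        refine Nat.Coprime.prod_right fun j hj => ?_
        rw [Nat.coprime_primes (hx.prime i) (hx.prime j)]
        exact fun h => hi (by rw [hx.inj h]; exact hj)
      have hmul := hcomm.orderOf_mul_eq_mul_orderOf_of_coprime hcop
      refine ⟨x i * g, mul_mem (Subgroup.subset_closure ⟨i, rfl⟩) hg, ?_, ?_⟩
      · rw [hmul, hoi, ho, Finset.prod_insert hi]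
      · have hpow : ∀ k : ℕ, (x i * g) ^ k = x i ^ k * g ^ k := fun k => hcomm.mul_pow k
        have h1 : x i ∈ Subgroup.zpowers (x i * g) := by
          have h3 : x i ^ orderOf g ∈ Subgroup.zpowers (x i * g) := by
            have := Subgroup.pow_mem _ (Subgroup.mem_zpowers (x i * g)) (orderOf g)
            rwa [hpow, pow_orderOf_eq_one, mul_one] at this
          have h4 : x i ∈ Subgroup.zpowers (x i ^ orderOf g) := by
            obtain ⟨k, hk⟩ := exists_pow_eq_self_of_coprime hcop.symm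
            have h5 := Subgroup.pow_mem _ (Subgroup.mem_zpowers (x i ^ orderOf g)) k
            rwa [hk] at h5
          exact (Subgroup.zpowers_le.2 h3) h4
        have h2 : g ∈ Subgroup.zpowers (x i * g) := by
          have : (x i)⁻¹ * (x i * g) ∈ Subgroup.zpowers (x i * g) := mul_mem (inv_mem h1) (Subgroup.mem_zpowers _)
          rwa [inv_mul_cancel_left] at this
        intro j hj
        rcases Finset.mem_insert.1 hj with rfl | hj
        · exact h1
        · exact (Subgroup.zpowers_le.2 h2) (hm j hj)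
  obtain ⟨g, hg, ho, hm⟩ := key Finset.univ
  exact ⟨g, hg, ho, fun i => hm i (Finset.mem_univ i)⟩

/-- the odd primes of the order -/
theorem odd_prime {q : ℕ} (hq : q.Prime) (h2 : q ≠ 2) (hd : q ∣ 64561751654400) : q ∣ 15015 := by
  have e : (64561751654400 : ℕ) = 2 ^ 17 * (3 ^ 9 * (5 ^ 2 * (7 * (11 * 13)))) := by norm_num
  rw [e, hq.dvd_mul, hq.dvd_mul, hq.dvd_mul, hq.dvd_mul, hq.dvd_mul] at hd
  have key : ∀ {a k : ℕ}, a.Prime → q ∣ a ^ k → q = a := fun ha h =>
    (Nat.prime_dvd_prime_iff_eq hq ha).1 (hq.dvd_of_dvd_pow h)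
  rcases hd with h | h | h | h | h | h
  · exact absurd (key Nat.prime_two h) h2
  · rw [key Nat.prime_three h]; norm_num
  · rw [key Nat.prime_five h]; norm_num
  · rw [(Nat.prime_dvd_prime_iff_eq hq (by norm_num)).1 h]; norm_num
  · rw [(Nat.prime_dvd_prime_iff_eq hq (by norm_num)).1 h]; norm_num
  · rw [(Nat.prime_dvd_prime_iff_eq hq (by norm_num)).1 h]; norm_num

section

variable {G Ω ι : Type} [Group G] [Finite G] [Nonempty Ω] [MulAction G Ω] [Finite ι] {N : Subgroup G}

/-- **the odd members of a cover do not fix a transposition** -/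
theorem dead_fix (hE : Env G Ω N) (hN : N.Normal) (e : N ≃* Spor.Fi22) (hIH : IHx (Nat.card Spor.Fi22)) {x : ι → G}
    {r : ι → ℕ} (hx : PF x r) (hc : Cov Ω x) {p : Fin 3510} (hp : ∀ i, r i ≠ 2 → ac hN e (x i) p = p) : False := by
  by_cases h2 : ∃ i, r i = 2
  swap
  · exact dead hE hN e hIH hx hc fun i => hp i fun h => h2 ⟨i, h⟩
  obtain ⟨i, hi⟩ := h2
  have hne : ∀ j, j ≠ i → r j ≠ 2 := fun j hj h => hj (hx.inj (h.trans hi.symm))
  have hz2 : x i * x i = 1 := by
    have := hx.pow i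
    rwa [hi, pow_two] at this
  set q := ac hN e (x i) p with hq
  have hzq : ac hN e (x i) q = p := by
    rw [hq, ← Equiv.Perm.mul_apply, ← map_mul, hz2, map_one, Equiv.Perm.one_apply]
  have hjq : ∀ j, j ≠ i → ac hN e (x j) q = q := fun j hj => by
    rw [hq, comm_ac (hx.comm j i), hp j (hne j hj)]
  by_cases hqp : q = p
  · refine dead hE hN e hIH hx hc (p := p) fun j => ?_
    by_cases hj : j = i
    · rw [hj]; exact hqp
    · exact hp j (hne j hj)
  have zp : x i * dl e p * (x i)⁻¹ = dl e q := by rw [ac_spec hN]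
  have zq : x i * dl e q * (x i)⁻¹ = dl e p := by rw [ac_spec hN, hzq]
  by_cases hn : nc p q
  · -- the third transposition
    set v := ac hN e (dl e p) q with hv
    have hdv : dl e v = dl e p * dl e q * dl e p := by
      rw [hv, ← ac_spec hN, dl_inv]
    have hbr : dl e p * dl e q * dl e p = dl e q * dl e p * dl e q := by
      have h5 := dl_cube (e := e) hn
      have h6 : dl e p * dl e q * dl e p * (dl e q * dl e p * dl e q) = 1 := by
        rw [← h5, pow_succ, pow_two]; group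
      have h7 := eq_inv_of_mul_eq_one_left h6
      rw [h7, mul_inv_rev, mul_inv_rev, dl_inv, dl_inv, mul_assoc]
    refine dead hE hN e hIH hx hc (p := v) fun j => ?_
    by_cases hj : j = i
    · rw [hj]
      apply dl_inj (e := e)
      rw [← ac_spec hN, hdv]
      calc x i * (dl e p * dl e q * dl e p) * (x i)⁻¹ =
          (x i * dl e p * (x i)⁻¹) * (x i * dl e q * (x i)⁻¹) * (x i * dl e p * (x i)⁻¹) := by group
        _ = dl e p * dl e q * dl e p := by rw [zp, zq, hbr]
    · rw [ac_fix, hdv]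
      have c1 : Commute (x j) (dl e p) := ac_fix.1 (hp j (hne j hj))
      have c2 : Commute (x j) (dl e q) := ac_fix.1 (hjq j hj)
      exact ((c1.mul_right c2).mul_right c1).eq
  · have hy : dl e p * x i * (dl e p)⁻¹ * (x i)⁻¹ = dl e p * dl e q := by
      calc dl e p * x i * (dl e p)⁻¹ * (x i)⁻¹ = dl e p * (x i * dl e p * (x i)⁻¹)⁻¹ := by group
        _ = _ := by rw [zp, dl_inv]
    refine Cfsg.Agent.H86.RG.repl_one (Ω := Ω) (ι := ι) (D := {dl e p}) ?_ hx hc i (c := dl e p)
      (fun j hj => (ac_fix.1 (hp j (hne j hj))).symm) Nat.prime_two (fun j hj => hne j hj) ?_ ?_ rfl ?_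
      (fun j hj => (ac_fix.1 (hp j (hne j hj))).symm)
    · intro x' r' hx' hc' d hd hcomm
      rw [Set.mem_singleton_iff] at hd
      subst hd
      exact dead hE hN e hIH hx' hc' (p := p) fun j => ac_fix.2 (hcomm j).symm
    · rw [hy]; exact prod_sq hn
    · rw [hy]; exact prod_ne (fun h => hqp h.symm)
    · rw [hy]
      have h1 : dl e p * dl e q = dl e q * dl e p := dl_comm.2 hn
      calc dl e p * (dl e p * dl e q) = dl e p * (dl e q * dl e p) := by rw [h1]
        _ = dl e p * dl e q * dl e p := by rw [mul_assoc]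

end

/-- the counting rule of helper272 -/
def KillD : Prop :=
  ∀ {G Ω : Type} [Group G] [Finite G] [Finite Ω] [Nonempty Ω] [MulAction G Ω] {N : Subgroup G}
    (_ : Env G Ω N) (e : N ≃* Spor.Fi22) {z h : G} (_ : z ^ 2 = 1) (_ : z ≠ 1) (hh : h ∈ N)
    (_ : ∃ θ : MulAut Spor.Fi22, e ⟨h, hh⟩ = θ (el [1, 8, 6] * el [2, 5, 7] * (el [1, 8, 6])⁻¹ * (el [2, 5, 7])⁻¹))
    (_ : ∀ ω : Ω, z • ω = ω ∨ h • ω = ω), False

theorem ac_inj {G Ω : Type} [Group G] [MulAction G Ω] {N : Subgroup G} (hE : Env G Ω N) (hN : N.Normal)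
    (e : N ≃* Spor.Fi22) {g : G} (h : ac hN e g = 1) : g = 1 := by
  refine eq_one_of_gen (e := e) hE.cent fun s => ?_
  obtain ⟨p, hp⟩ := dl_gen e s
  rw [← hp]
  exact ac_fix.1 (by rw [h, Equiv.Perm.one_apply])

/-- **no cover** -/
theorem main {G Ω ι : Type} [Group G] [Finite G] [Finite Ω] [Nonempty Ω] [MulAction G Ω] [Finite ι] {N : Subgroup G}
    (hsq : SqInner Spor.Fi22) (hT : KillD) (hE : Env G Ω N) (hN : N.Normal) (e : N ≃* Spor.Fi22)
    (hIH : IHx (Nat.card Spor.Fi22)) {x : ι → G} {r : ι → ℕ} (hx : PF x r) (hc : Cov Ω x) : False := by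
  classical
  have : Fintype ι := Fintype.ofFinite ι
  let κ := {i : ι // r i ≠ 2}
  have hκ : PF (fun i : κ => x i.1) (fun i : κ => r i.1) :=
    ⟨fun i => hx.prime _, fun a b h => Subtype.ext (hx.inj h), fun i => hx.pow _, fun i => hx.ne _,
      fun i j => hx.comm _ _⟩
  obtain ⟨g, hgc, ho, hm⟩ := exists_prodc hκ
  have hgN : g ∈ N := by
    refine (Subgroup.closure_le N).2 ?_ hgc
    rintro _ ⟨i, rfl⟩
    exact prime_mem hE e hsq (hx.prime i.1) i.2 (hx.pow i.1)
  have hcomm : ∀ j, x j * g = g * x j := fun j => by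
    refine Subgroup.closure_induction (p := fun g _ => x j * g = g * x j) ?_ (by rw [mul_one, one_mul]) ?_ ?_ hgc
    · rintro _ ⟨i, rfl⟩
      exact hx.comm _ _
    · intro a b _ _ ha hb
      exact ((show Commute (x j) a from ha).mul_right hb).eq
    · intro a _ ha
      exact ((show Commute (x j) a from ha).inv_right).eq
  -- the order of `g`
  have hdvd : orderOf g ∣ 15015 := by
    rw [ho]
    have h1 : ∏ i : κ, r i.1 = ∏ q ∈ Finset.univ.image (fun i : κ => r i.1), q := by
      rw [Finset.prod_image fun a _ b _ h => Subtype.ext (hx.inj h)]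
    rw [h1]
    refine Finset.prod_primes_dvd _ (fun q hq => ?_) fun q hq => ?_
    · obtain ⟨i, -, rfl⟩ := Finset.mem_image.1 hq
      exact (hx.prime i.1).prime
    · obtain ⟨i, -, rfl⟩ := Finset.mem_image.1 hq
      refine odd_prime (hx.prime i.1) i.2 ?_
      have hxN := prime_mem hE e hsq (hx.prime i.1) i.2 (hx.pow i.1)
      have h2 : orderOf (⟨x i.1, hxN⟩ : N) = r i.1 := by
        have := Fact.mk (hx.prime i.1)
        exact orderOf_eq_prime (Subtype.ext (hx.pow i.1)) fun h => hx.ne i.1 (congrArg Subtype.val h)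
      rw [← h2, ← Cfsg.Agent.R01.Fi22Facts.card, ← Nat.card_congr e.toEquiv]
      exact orderOf_dvd_natCard _
  -- the cover in terms of `g`
  have key : ∀ ω : Ω, (∃ i, r i = 2 ∧ x i • ω = ω) ∨
      ∃ q, q.Prime ∧ q ∣ orderOf g ∧ g ^ (orderOf g / q) • ω = ω := by
    intro ω
    obtain ⟨i, hi⟩ := hc ω
    by_cases h2 : r i = 2
    · exact Or.inl ⟨i, h2, hi⟩
    refine Or.inr ⟨r i, hx.prime i, ?_, ?_⟩
    · rw [ho]
      exact Finset.dvd_prod_of_mem (fun j : κ => r j.1) (Finset.mem_univ ⟨i, h2⟩)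
    · have h3 : r i ∣ orderOf g := by
        rw [ho]
        exact Finset.dvd_prod_of_mem (fun j : κ => r j.1) (Finset.mem_univ ⟨i, h2⟩)
      have h4 := pow_mem_zp (hx.prime i) h3 (hm ⟨i, h2⟩) (hx.pow i) (hx.ne i)
      have h5 : Subgroup.zpowers (x i) ≤ MulAction.stabilizer G ω := Subgroup.zpowers_le.2 hi
      exact h5 h4
  have hg1 : (∀ i, r i ≠ 2) → g ≠ 1 := by
    rintro h2 rfl
    obtain ⟨ω₀⟩ := (inferInstance : Nonempty Ω)
    rcases key ω₀ with ⟨i, hi, -⟩ | ⟨q, hq, hd, -⟩
    · exact h2 i hi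
    · rw [orderOf_one] at hd
      exact hq.one_lt.ne' (Nat.dvd_one.1 hd)
  have hg1' : g ≠ 1 := by
    by_cases h2 : ∃ i, r i = 2
    · rintro rfl
      obtain ⟨i, hi⟩ := h2
      refine hx.ne i (hE.single fun ω => ?_)
      rcases key ω with ⟨j, hj, hjω⟩ | ⟨q, hq, hd, -⟩
      · rw [hx.inj (hj.trans hi.symm)] at hjω
        exact hjω
      · rw [orderOf_one] at hd
        exact absurd (Nat.dvd_one.1 hd) hq.one_lt.ne'
    · exact hg1 fun i hi => h2 ⟨i, hi⟩
  -- the class of `g`
  obtain ⟨y, hy, ⟨θ, hθ⟩, ht, b, hb, hrho⟩ := cover (e ⟨g, hgN⟩)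
  have hac : ac hN e g = b * rho (com y) * b⁻¹ := by rw [ac_mem hN e hgN, hrho]
  have hpow : ∀ k, rho (com y) ^ k = 1 → g ^ k = 1 := fun k hk => by
    apply ac_inj hE hN e
    rw [map_pow, hac, conj_pow, hk, mul_one, mul_inv_cancel]
  have hpow' : ∀ k, g ^ k = 1 → rho (com y) ^ k = 1 := fun k hk => by
    have h1 : rho (com y) = b⁻¹ * ac hN e g * b⁻¹⁻¹ := by rw [hac]; group
    rw [h1, conj_pow, ← map_pow, hk, map_one, mul_one, mul_inv_cancel]
  have hr1 : rho (com y) ≠ 1 := fun h => hg1' (by simpa using hpow 1 (by rw [pow_one, h]))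
  -- prime order
  have hprime : ∀ {q : ℕ}, q.Prime → g ^ q = 1 → ∀ ω : Ω, (∃ i, r i = 2 ∧ x i • ω = ω) ∨ g • ω = ω := by
    intro q hq hgq ω
    have := Fact.mk hq
    have hoq : orderOf g = q := orderOf_eq_prime hgq hg1'
    rcases key ω with h | ⟨q', hq', hd, h⟩
    · exact Or.inl h
    · right
      rw [hoq] at hd h
      rw [(Nat.prime_dvd_prime_iff_eq hq' hq).1 hd, Nat.div_self hq.pos, pow_one] at h
      exact h
  rcases kind y hy with hk | hk | hk | hk | hk
  · exact hk _ ht (hpow' _ (orderOf_dvd_iff_pow_eq_one.1 hdvd))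
  · -- class 3D
    have hg3 : g ^ 3 = 1 := hpow 3 (pow_of_chk pow3 (P := p3) (by rw [hk] at ht ⊢; exact ht))
    have h1 := hprime Nat.prime_three hg3
    by_cases h2 : ∃ i, r i = 2
    · obtain ⟨i, hi⟩ := h2
      refine hT hE e (z := x i) (h := g) (by rw [← hi]; exact hx.pow i) (hx.ne i) hgN ⟨θ, ?_⟩ fun ω => ?_
      · rw [hθ, hk]
        rfl
      · rcases h1 ω with ⟨j, hj, hjω⟩ | h
        · rw [hx.inj (hj.trans hi.symm)] at hjω
          exact Or.inl hjω
        · exact Or.inr h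
    · exact hg1' (hE.single fun ω => (h1 ω).resolve_left fun ⟨i, hi, _⟩ => h2 ⟨i, hi⟩)
  · -- a fixed transposition
    obtain ⟨p, hp⟩ := hk _ ht
    have hfix : ac hN e g (b p) = b p := by
      rw [hac]
      show b (rho (com y) (b⁻¹ (b p))) = b p
      rw [show b⁻¹ (b p) = p from Equiv.symm_apply_apply _ p, hp]
    refine dead_fix hE hN e hIH hx hc (p := b p) fun i hi => ?_
    obtain ⟨k, hk⟩ := Subgroup.mem_zpowers_iff.1 (hm ⟨i, hi⟩)
    have hk' : g ^ k = x i := hk
    rw [← hk', ac_fix]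
    exact ((show Commute g (dl e (b p)) from ac_fix.1 hfix).zpow_left k).eq
  · -- class 13A
    have ht' : ∀ p, (rho (com y) p : ℕ) = lk 12 p45 p := by rw [← hk]; exact ht
    have h1 := hprime (q := 13) (by norm_num) (hpow 13 (pow_of_chk pow45 ht'))
    by_cases h2 : ∃ i, r i = 2
    · obtain ⟨i, hi⟩ := h2
      have hz2 : x i * x i = 1 := by
        have := hx.pow i
        rwa [hi, pow_two] at this
      refine no_inv13 ht' hb (ac_Aut hN e (x i)) ?_ (by rw [← map_mul, hz2, map_one])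
        (fun h => hx.ne i (ac_inj hE hN e h)) hr1 ?_
      · rw [← hac]; exact ac_Aut hN e g
      · rw [← hac, ← map_mul, ← map_mul, hcomm i]
    · exact hg1' (hE.single fun ω => (h1 ω).resolve_left fun ⟨i, hi, _⟩ => h2 ⟨i, hi⟩)
  · -- class 21A
    have ht' : ∀ p, (rho (com y) p : ℕ) = lk 12 p53 p := by rw [← hk]; exact ht
    have ho21 : orderOf g = 21 := by
      obtain ⟨r', hr', a, ha, h21⟩ := r21_class
      have hrr : r' = rho (com y) := perm_eq_of_tab hr' ht'
      have h3 : ∀ k, g ^ k = 1 ↔ r21 ^ k = 1 := fun k => by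
        rw [h21, conj_pow, conj_eq_one_iff, hrr]
        exact ⟨hpow' k, hpow k⟩
      rw [← order_r21]
      exact orderOf_eq_orderOf_iff.2 h3
    have h1 : ∀ ω : Ω, (∃ i, r i = 2 ∧ x i • ω = ω) ∨ g ^ 7 • ω = ω ∨ g ^ 3 • ω = ω := by
      intro ω
      rcases key ω with h | ⟨q, hq, hd, h⟩
      · exact Or.inl h
      · right
        rw [ho21] at hd h
        rw [show 21 = 3 * 7 from rfl, hq.dvd_mul, Nat.prime_dvd_prime_iff_eq hq Nat.prime_three,
          Nat.prime_dvd_prime_iff_eq hq (by norm_num)] at hd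
        rcases hd with rfl | rfl
        · exact Or.inl h
        · exact Or.inr h
    have hg21 : g ^ 21 = 1 := by rw [← ho21]; exact pow_orderOf_eq_one g
    have h7 : (g ^ 7) ^ 3 = 1 := by rw [← pow_mul]; exact hg21
    have h3 : (g ^ 3) ^ 7 = 1 := by rw [← pow_mul]; exact hg21
    have h7' : g ^ 7 ≠ 1 := fun h => by
      have := orderOf_dvd_of_pow_eq_one h
      rw [ho21] at this
      norm_num at this
    have h3' : g ^ 3 ≠ 1 := fun h => by
      have := orderOf_dvd_of_pow_eq_one h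
      rw [ho21] at this
      norm_num at this
    by_cases h2 : ∃ i, r i = 2
    · obtain ⟨i, hi⟩ := h2
      have hz2 : x i * x i = 1 := by
        have := hx.pow i
        rwa [hi, pow_two] at this
      have hconf := conf21 ht' hb (ac_Aut hN e (x i)) (by rw [← map_mul, hz2, map_one])
        (fun h => hx.ne i (ac_inj hE hN e h)) (by rw [← hac, ← map_mul, ← map_mul, hcomm i])
      rw [← hac] at hconf
      obtain ⟨p, p', s, s', t, c1, c2, c3, c4, c5, c6, c7, c8, c9, c10, c11, c12⟩ := hconf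
      rw [← map_pow] at c1 c3
      refine kill_three hE hN e hIH hz2 h7 h7' ?_ ?_ ?_ (fun ω => ?_) c1 c2 c3 c4 c5 c6 c7 c8 c9 c10 c11 c12
      · exact ((show Commute (x i) g from hcomm i).pow_right 7).eq
      · exact ((show Commute (x i) g from hcomm i).pow_right 3).eq
      · exact ((Commute.refl g).pow_pow 7 3).eq
      · rcases h1 ω with ⟨j, hj, hjω⟩ | h | h
        · rw [hx.inj (hj.trans hi.symm)] at hjω
          exact Or.inl hjω
        · exact Or.inr (Or.inl h)
        · exact Or.inr (Or.inr h)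
    · have hfix : ∃ p, ac hN e (g ^ 7) p = p := by
        obtain ⟨r', hr', a, ha, h21⟩ := r21_class
        have hrr : r' = rho (com y) := perm_eq_of_tab hr' ht'
        obtain ⟨p, p', s, s', t, c1, -⟩ := conf_r21
        refine ⟨b (a⁻¹ p), ?_⟩
        rw [map_pow, hac, conj_pow]
        show b ((rho (com y) ^ 7) (b⁻¹ (b (a⁻¹ p)))) = b (a⁻¹ p)
        rw [show b⁻¹ (b (a⁻¹ p)) = a⁻¹ p from Equiv.symm_apply_apply _ _]
        congr 1
        have h4 : rho (com y) ^ 7 = a⁻¹ * r21 ^ 7 * a⁻¹⁻¹ := by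
          rw [← hrr, ← conj_pow, h21]; group
        rw [h4]
        show a⁻¹ ((r21 ^ 7) (a⁻¹⁻¹ (a⁻¹ p))) = a⁻¹ p
        rw [show a⁻¹⁻¹ (a⁻¹ p) = p from Equiv.symm_apply_apply _ _, c1]
      obtain ⟨p, hp⟩ := hfix
      refine kill_pair hE hN e hIH (h := g ^ 7) (w := g ^ 3) (a := 7) (b := 3) (by norm_num) Nat.prime_three (by norm_num)
        (by norm_num) h3 h3' h7 h7' ((Commute.refl g).pow_pow 3 7).eq (fun ω => ?_) ?_ hp
      · exact (h1 ω).resolve_left fun ⟨i, hi, _⟩ => h2 ⟨i, hi⟩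
      · rw [map_pow, hac, conj_pow]
        exact (rp_of_chk chk53 ht').conj hb

end Cfsg.Agent.H895.RG.Fi22
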