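import Cfsg.Agent.H895.RG.Cls
import Cfsg.Agent.H895.RG.Pair

/-!
# S3509, row `Fi22`: the classes `13A` and `21A` and the involutions commuting with them (helper895)

* `rp53` : the property `RP` for the elements of order 3 in the elements of the class `21A`;
* `no_inv13` : no involution of the automorphism group of the graph commutes with an element of the class `13A`;
* `conf21` : the configuration for `kill_three` for the involutions commuting with an element of the class `21A`.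
-/

set_option autoImplicit false
set_option maxRecDepth 1000000
set_option exponentiation.threshold 5000

namespace Cfsg.Agent.H895.RG.Fi22

open Cfsg Cfsg.Spor Cfsg.Agent.H123.Cls Cfsg.Agent.Lib.BitNet Cfsg.Agent.H123.Cls.FiDat
open Cfsg.Agent.H494.F22 (rho S S_val S_mem S_mul_self)
open Cfsg.Agent.H494.F22.Row (row)
open Cfsg.Agent.Lib.BitNetSimple (force force_eq tb tb_eq)

/-- a power of prime order of a generator of a cyclic group containing `x` -/
theorem pow_mem_zp {G : Type*} [Group G] [Finite G] {g x : G} {q : ℕ} (hq : q.Prime) (hd : q ∣ orderOf g)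
    (hx : x ∈ Subgroup.zpowers g) (hxq : x ^ q = 1) (hx1 : x ≠ 1) : g ^ (orderOf g / q) ∈ Subgroup.zpowers x := by
  obtain ⟨t, ht⟩ := (isOfFinOrder_of_finite g).mem_powers_iff_mem_zpowers.2 hx
  have ht : g ^ t = x := ht
  obtain ⟨m, hm⟩ := hd
  have hpos : 0 < orderOf g := orderOf_pos g
  have hmq : orderOf g / q = m := by rw [hm, Nat.mul_div_cancel_left _ hq.pos]
  rw [hmq]
  have h1 : q * m ∣ t * q := by
    rw [← hm]
    refine orderOf_dvd_of_pow_eq_one ?_
    rw [pow_mul, ht, hxq]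
  have h2 : m ∣ t := by
    rw [mul_comm t q] at h1
    exact Nat.dvd_of_mul_dvd_mul_left hq.pos h1
  obtain ⟨s, rfl⟩ := h2
  have ho : orderOf (g ^ m) = q := by
    rw [orderOf_pow' g (by rintro rfl; rw [mul_zero] at hm; omega), hm, Nat.gcd_eq_right (Dvd.intro_left q rfl),
      Nat.mul_div_cancel _ (Nat.pos_of_ne_zero (by rintro rfl; rw [mul_zero] at hm; omega))]
  have h3 : Nat.Coprime s (orderOf (g ^ m)) := by
    rw [ho]
    refine Nat.Coprime.symm ((Nat.Prime.coprime_iff_not_dvd hq).2 fun h => hx1 ?_)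
    obtain ⟨u, rfl⟩ := h
    rw [← ht, pow_mul, pow_mul, ← ho, pow_orderOf_eq_one, one_pow]
  obtain ⟨u, hu⟩ := exists_pow_eq_self_of_coprime h3
  rw [← hu, ← pow_mul g m s, ht]
  exact Subgroup.pow_mem _ (Subgroup.mem_zpowers x) u

/-! ### the property `RP` -/

/-- the union of the points -/
noncomputable def orL (L : List ℕ) : ℕ := List.rec 0 (fun a _ ih => Nat.lor (Nat.pow 2 a) ih) L

/-- conjunction over a list -/
noncomputable def allL (t : ℕ → Bool) (L : List ℕ) : Bool := List.rec true (fun a _ ih => band (t a) ih) L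

theorem orL_bit : ∀ {L : List ℕ} {i : ℕ}, (orL L).testBit i = true → i ∈ L
  | [], i, h => by
    change (0 : ℕ).testBit i = true at h
    simp at h
  | a :: L, i, h => by
    change (2 ^ a ||| orL L).testBit i = true at h
    rw [Nat.testBit_or, Bool.or_eq_true, Nat.testBit_two_pow, decide_eq_true_eq] at h
    rcases h with h | h
    · rw [h]; exact List.mem_cons_self
    · exact List.mem_cons_of_mem _ (orL_bit h)

theorem allL_iff {t : ℕ → Bool} : ∀ {L : List ℕ}, allL t L = true → ∀ a ∈ L, t a = true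
  | [], _, a, h => absurd h (List.not_mem_nil)
  | b :: L, h, a, ha => by
    obtain ⟨h1, h2⟩ := band_true (show band (t b) (allL t L) = true from h)
    rcases List.mem_cons.1 ha with rfl | ha
    · exact h1
    · exact allL_iff h2 a ha

noncomputable def onesN : ℕ := Nat.sub (Nat.pow 2 3510) 1

noncomputable def chkRP (P j : ℕ) (L : List ℕ) : Bool :=
  force (pwM 3510 12 row 12 P (false, j)) fun F => band (Nat.beq (orL L) F) (allL (fun p => force (row p) fun Rp =>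
    force (Nat.land F (Nat.xor onesN (Nat.lor Rp (Nat.pow 2 p)))) fun A =>
      allL (fun q => or (not (tb Rp q)) (not (Nat.beq (Nat.land A (row q)) 0))) L) L)

theorem rp_of_chk {P j : ℕ} {L : List ℕ} (h : chkRP P j L = true) {r : Equiv.Perm (Fin 3510)}
    (hr : ∀ p, (r p : ℕ) = lk 12 P p) : RP (r ^ j) := by
  unfold chkRP at h
  rw [force_eq] at h
  obtain ⟨h1, h2⟩ := band_true h
  have hF : ∀ p : Fin 3510, (pwM 3510 12 row 12 P (false, j)).testBit p = true ↔ (r ^ j) p = p := fun p =>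
    testBit_pwM (by norm_num) hr (false, j) p
  have hL : ∀ p : Fin 3510, (r ^ j) p = p → (p : ℕ) ∈ L := fun p hp => by
    apply orL_bit
    rw [Nat.eq_of_beq_eq_true h1]
    exact (hF p).2 hp
  intro p q hp hq hn
  have h3 := allL_iff h2 p (hL p hp)
  rw [force_eq, force_eq] at h3
  have h4 := allL_iff h3 q (hL q hq)
  rw [tb_eq, show (row p).testBit (q : ℕ) = true from hn, Bool.not_true, Bool.false_or, Bool.not_eq_true'] at h4
  have h5 : (pwM 3510 12 row 12 P (false, j) &&& (onesN ^^^ (row p ||| 2 ^ (p : ℕ)))) &&& row q ≠ 0 := by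
    intro h6
    have : Nat.beq (Nat.land (Nat.land (pwM 3510 12 row 12 P (false, j))
      (Nat.xor onesN (Nat.lor (row p) (Nat.pow 2 p)))) (row q)) 0 = true := by
      rw [Nat.beq_eq]
      exact h6
    rw [this] at h4
    exact absurd h4 (by simp)
  obtain ⟨s, hs⟩ := Nat.exists_testBit_of_ne_zero h5
  rw [Nat.testBit_and, Nat.testBit_and, Bool.and_eq_true, Bool.and_eq_true] at hs
  obtain ⟨⟨h6, h7⟩, h8⟩ := hs
  have hs' : s < 3510 := pwM_lt (n := 3510) (K := 12) (row := row) (w := 12) (P := P) (false, j) s h6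
  have h9 : onesN.testBit s = true := by
    show (2 ^ 3510 - 1).testBit s = true
    rw [Nat.testBit_two_pow_sub_one]
    exact decide_eq_true hs'
  rw [Nat.testBit_xor, h9, Nat.testBit_or, Nat.testBit_two_pow, Bool.true_xor, Bool.not_eq_true', Bool.or_eq_false_iff,
    decide_eq_false_iff_not] at h7
  refine ⟨⟨s, hs'⟩, (hF ⟨s, hs'⟩).1 h6, fun h => h7.2 (congrArg Fin.val h).symm, fun h => ?_, h8⟩
  have h10 : (row p).testBit s = true := h
  rw [h7.1] at h10
  exact absurd h10 (by simp)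

theorem RP.conj {σ b : Equiv.Perm (Fin 3510)} (h : RP σ) (hb : b ∈ Aut 3510 row) : RP (b * σ * b⁻¹) := by
  intro p q hp hq hn
  obtain ⟨p, rfl⟩ := b.surjective p
  obtain ⟨q, rfl⟩ := b.surjective q
  have e : ∀ v, (b * σ * b⁻¹) (b v) = b (σ v) := fun v => by
    show b (σ (b⁻¹ (b v))) = b (σ v)
    rw [show b⁻¹ (b v) = v from Equiv.symm_apply_apply _ v]
  rw [e] at hp hq
  rw [nc_aut hb] at hn
  obtain ⟨s, h1, h2, h3, h4⟩ := h p q (b.injective hp) (b.injective hq) hn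
  exact ⟨b s, by rw [e, h1], fun h' => h2 (b.injective h'), by rw [nc_aut hb]; exact h3, by rw [nc_aut hb]; exact h4⟩

theorem chk53 : chkRP p53 7 [0, 1, 2, 3, 9, 10, 11, 12, 13, 14, 63, 69, 70, 79, 80, 81, 82, 91, 104, 196, 197, 198, 202, 222, 243, 244, 253, 528, 529, 530, 531, 585, 586, 587, 588, 628, 629, 630, 676, 677, 678, 679, 680, 681, 682, 683, 952, 953, 954, 955, 956, 1073, 1074, 1097, 1098, 1099, 1168, 1297, 1298, 1299, 1561, 1562, 1563, 1589, 1590, 1634, 1635, 1636, 1674, 1675, 1676, 1677, 1678, 1713, 1714, 1716, 1734, 1765, 1766, 1805, 1806, 1846, 1847, 1884, 1911, 1937, 1965, 2023, 2031, 2032, 2040, 2041, 2119, 2120, 2192, 2239, 2385, 2386, 2387, 2388, 2406, 2412, 2510, 2552, 2553, 2581, 2582, 2583, 2584, 2601, 2631, 2632, 2639, 2650, 2651, 2657, 2658, 2666, 2667, 2668, 2688, 2731, 2732, 2733, 2734, 2769] = true := by decide +kernel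

/-! ### bounds of the centralizers -/

theorem cent_le {P c : ℕ} {l : List (Bool × ℕ)} {L : List Cfsg.Agent.H123.Cls.Ins} (h : chkB 3510 12 row 12 P l L c = true)
    {r b : Equiv.Perm (Fin 3510)} (hr : ∀ p, (r p : ℕ) = lk 12 P p) (hb : b ∈ Aut 3510 row)
    {H : Subgroup (Equiv.Perm (Fin 3510))} (hH : H ≤ Aut 3510 row)
    (hc : ∀ σ ∈ H, σ * (b * r * b⁻¹) = (b * r * b⁻¹) * σ) : Nat.card H ≤ c + 1 := by
  let f : Equiv.Perm (Fin 3510) →* Equiv.Perm (Fin 3510) := (MulAut.conj b⁻¹).toMonoidHom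
  have hf : Function.Injective f := (MulAut.conj b⁻¹).injective
  have h1 : Nat.card (H.map f) = Nat.card H := Nat.card_congr (Subgroup.equivMapOfInjective H f hf).symm.toEquiv
  rw [← h1]
  refine card_le_bound (by norm_num : 3510 ≤ 2 ^ 12) hr h ?_ ?_
  · rintro _ ⟨σ, hσ, rfl⟩
    show b⁻¹ * σ * b⁻¹⁻¹ ∈ Aut 3510 row
    exact mul_mem (mul_mem (inv_mem hb) (hH hσ)) (inv_mem (inv_mem hb))
  · rintro _ ⟨σ, hσ, rfl⟩ i
    have h2 := hc σ hσ
    have h3 : (b⁻¹ * σ * b⁻¹⁻¹) * r = r * (b⁻¹ * σ * b⁻¹⁻¹) := by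
      calc (b⁻¹ * σ * b⁻¹⁻¹) * r = b⁻¹ * (σ * (b * r * b⁻¹)) * b := by group
        _ = b⁻¹ * ((b * r * b⁻¹) * σ) * b := by rw [h2]
        _ = _ := by group
    exact congrArg (fun τ : Equiv.Perm (Fin 3510) => τ i) h3

/-- no involution commutes with an element of the class `13A` -/
theorem no_inv13 {r b z : Equiv.Perm (Fin 3510)} (hr : ∀ p, (r p : ℕ) = lk 12 p45 p) (hb : b ∈ Aut 3510 row)
    (hz : z ∈ Aut 3510 row) (hs : b * r * b⁻¹ ∈ Aut 3510 row) (hz2 : z * z = 1) (hz1 : z ≠ 1)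
    (hr1 : r ≠ 1) (hc : z * (b * r * b⁻¹) = (b * r * b⁻¹) * z) : False := by
  set s := b * r * b⁻¹ with hsd
  have hs13 : s ^ 13 = 1 := by rw [hsd, conj_pow, pow_of_chk pow45 hr, mul_one, mul_inv_cancel]
  have hs1 : s ≠ 1 := by rw [hsd, ne_eq, conj_eq_one_iff]; exact hr1
  have o1 : orderOf s = 13 := by
    have : Fact (Nat.Prime 13) := ⟨by norm_num⟩
    exact orderOf_eq_prime hs13 hs1
  have o2 : orderOf z = 2 := by
    have : Fact (Nat.Prime 2) := ⟨Nat.prime_two⟩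
    exact orderOf_eq_prime (by rw [pow_two]; exact hz2) hz1
  have hcom : Commute z s := hc
  have o3 : orderOf (z * s) = 26 := by
    rw [hcom.orderOf_mul_eq_mul_orderOf_of_coprime (by rw [o1, o2]; norm_num), o1, o2]
  have h1 := cent_le bd45 hr hb (H := Subgroup.zpowers (z * s)) ((Subgroup.zpowers_le).2 (mul_mem hz hs))
    (fun σ hσ => by
      obtain ⟨k, rfl⟩ := Subgroup.mem_zpowers_iff.1 hσ
      exact ((hcom.mul_left (Commute.refl s)).zpow_left k).eq)
  rw [Nat.card_zpowers, o3] at h1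
  omega

/-! ### the class `21A` -/

/-- the diagram swap -/
noncomputable def tau9 : Equiv.Perm (Fin 3510) := S 9

/-- the element of order 21 -/
noncomputable def r21 : Equiv.Perm (Fin 3510) := rho (el w21)

theorem tau9_val (p : Fin 3510) : (tau9 p : ℕ) = lk 12 Cfsg.Agent.H494.F22.Dat.t9 p := S_val (by norm_num) p

theorem tau9_mem : tau9 ∈ Aut 3510 row := S_mem (by norm_num)

theorem tau9_sq : tau9 * tau9 = 1 := S_mul_self (by norm_num)

noncomputable def chk21 : Bool :=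
  band (allN (fun p => Nat.beq (lk 12 R21 (lk 12 Cfsg.Agent.H494.F22.Dat.t9 p)) (lk 12 Cfsg.Agent.H494.F22.Dat.t9 (lk 12 R21 p))) 3510)
    (band (allN (fun p => not (Nat.beq (lk 12 R21 p) p)) 3510)
      (band (not (Nat.beq (it 12 R21 3 0) 0)) (band (not (Nat.beq (it 12 R21 7 0) 0)) (band (not (Nat.beq (it 12 R21 13 0) 0))
        (band (Nat.beq (it 12 R21 7 178) 178) (band (Nat.beq (lk 12 Cfsg.Agent.H494.F22.Dat.t9 178) 2613)
          (band (Nat.beq (it 12 R21 3 178) 1481) (Nat.beq (lk 12 Cfsg.Agent.H494.F22.Dat.t9 1481) 443))))))))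

theorem chk21_eq : chk21 = true := by decide +kernel

noncomputable def chkN : Bool :=
  and (not (tb (row 178) 2613)) (and (not (tb (row 178) 1481)) (and (not (tb (row 178) 443)) (and (tb (row 178) 7)
    (and (tb (row 2613) 7) (and (not (tb (row 1481) 7)) (not (tb (row 443) 7)))))))

theorem chkN_eq : chkN = true := by decide +kernel

/-- the configuration of `kill_three` -/
def Conf (g z : Equiv.Perm (Fin 3510)) : Prop :=
  ∃ p p' s s' t : Fin 3510, (g ^ 7) p = p ∧ z p = p' ∧ (g ^ 3) p = s ∧ z s = s' ∧ ¬ nc p p' ∧ ¬ nc p s ∧ ¬ nc p s' ∧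
    nc p t ∧ nc p' t ∧ ¬ nc s t ∧ ¬ nc s' t ∧ p ≠ p'

theorem Conf.conj {g z b : Equiv.Perm (Fin 3510)} (h : Conf g z) (hb : b ∈ Aut 3510 row) :
    Conf (b * g * b⁻¹) (b * z * b⁻¹) := by
  obtain ⟨p, p', s, s', t, h1, h2, h3, h4, h5, h6, h7, h8, h9, h10, h11, h12⟩ := h
  have e : ∀ σ v, (b * σ * b⁻¹) (b v) = b (σ v) := fun σ v => by
    show b (σ (b⁻¹ (b v))) = b (σ v)
    rw [show b⁻¹ (b v) = v from Equiv.symm_apply_apply _ v]
  refine ⟨b p, b p', b s, b s', b t, ?_, ?_, ?_, ?_, ?_, ?_, ?_, ?_, ?_, ?_, ?_, ?_⟩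
  · rw [conj_pow, e, h1]
  · rw [e, h2]
  · rw [conj_pow, e, h3]
  · rw [e, h4]
  · rwa [nc_aut hb]
  · rwa [nc_aut hb]
  · rwa [nc_aut hb]
  · rwa [nc_aut hb]
  · rwa [nc_aut hb]
  · rwa [nc_aut hb]
  · rwa [nc_aut hb]
  · exact fun h' => h12 (b.injective h')

theorem conf_r21 : Conf r21 tau9 := by
  have h0 := chk21_eq
  unfold chk21 at h0
  simp only [band_eq] at h0
  obtain ⟨-, -, -, -, -, h1, h2, h3, h4⟩ := h0
  have hN := chkN_eq
  unfold chkN at hN
  simp only [tb_eq, Bool.and_eq_true, Bool.not_eq_true'] at hN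
  obtain ⟨n1, n2, n3, n4, n5, n6, n7⟩ := hN
  have hr : ∀ p : Fin 3510, (r21 p : ℕ) = lk 12 R21 p := R21_tab
  have key : ∀ {a b : ℕ} (ha : a < 3510) (hb : b < 3510), (row a).testBit b = false → ¬ nc ⟨a, ha⟩ ⟨b, hb⟩ := by
    intro a b ha hb h h'
    have h'' : (row a).testBit b = true := h'
    rw [h] at h''
    exact absurd h'' (by simp)
  refine ⟨⟨178, by norm_num⟩, ⟨2613, by norm_num⟩, ⟨1481, by norm_num⟩, ⟨443, by norm_num⟩, ⟨7, by norm_num⟩,
    Fin.ext ?_, Fin.ext ?_, Fin.ext ?_, Fin.ext ?_, key _ _ n1, key _ _ n2, key _ _ n3, n4, n5, key _ _ n6, key _ _ n7, ?_⟩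
  · rw [← it_eq hr 7]; exact Nat.eq_of_beq_eq_true h1
  · rw [tau9_val]; exact Nat.eq_of_beq_eq_true h2
  · rw [← it_eq hr 3]; exact Nat.eq_of_beq_eq_true h3
  · rw [tau9_val]; exact Nat.eq_of_beq_eq_true h4
  · intro h
    exact absurd (congrArg Fin.val h) (by norm_num)

theorem tau_comm : tau9 * r21 = r21 * tau9 := by
  have h0 := chk21_eq
  unfold chk21 at h0
  simp only [band_eq] at h0
  obtain ⟨h1, -⟩ := h0
  have hr : ∀ p : Fin 3510, (r21 p : ℕ) = lk 12 R21 p := R21_tab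
  ext p
  have h2 := Nat.eq_of_beq_eq_true ((allN_iff _ _).1 h1 p p.2)
  rw [← tau9_val, ← hr, ← hr, ← tau9_val] at h2
  exact h2.symm

theorem r21_pow : r21 ^ 21 = 1 := pow_of_chk R21_pow R21_tab

theorem r21_ne : r21 ^ 3 ≠ 1 ∧ r21 ^ 7 ≠ 1 ∧ r21 ^ 13 ≠ 1 ∧ ∀ p, r21 p ≠ p := by
  have h0 := chk21_eq
  unfold chk21 at h0
  simp only [band_eq] at h0
  obtain ⟨-, h1, h2, h3, h4, -⟩ := h0
  have hr : ∀ p : Fin 3510, (r21 p : ℕ) = lk 12 R21 p := R21_tab
  refine ⟨pow_ne_of_chk (P := R21) (p := 0) (band_eq.2 ⟨rfl, h2⟩) hr, pow_ne_of_chk (P := R21) (p := 0) (band_eq.2 ⟨rfl, h3⟩) hr,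
    pow_ne_of_chk (P := R21) (p := 0) (band_eq.2 ⟨rfl, h4⟩) hr, fun p hp => ?_⟩
  have h5 := (allN_iff _ _).1 h1 p p.2
  rw [← hr, hp, Nat.beq_refl] at h5
  exact absurd h5 (by simp)

theorem order_r21 : orderOf r21 = 21 := by
  have h1 : orderOf r21 ∣ 21 := orderOf_dvd_of_pow_eq_one r21_pow
  have h2 : ¬ orderOf r21 ∣ 3 := fun h => r21_ne.1 (orderOf_dvd_iff_pow_eq_one.1 h)
  have h3 : ¬ orderOf r21 ∣ 7 := fun h => r21_ne.2.1 (orderOf_dvd_iff_pow_eq_one.1 h)
  have h4 : orderOf r21 ∈ Nat.divisors 21 := Nat.mem_divisors.2 ⟨h1, by norm_num⟩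
  rw [show Nat.divisors 21 = {1, 3, 7, 21} by decide] at h4
  simp only [Finset.mem_insert, Finset.mem_singleton] at h4
  rcases h4 with h | h | h | h
  · exact absurd (h ▸ one_dvd _) h2
  · exact absurd (h ▸ dvd_rfl) h2
  · exact absurd (h ▸ dvd_rfl) h3
  · exact h

theorem tau9_ne : tau9 ≠ 1 := by
  intro h
  obtain ⟨p, p', s, s', t, -, h2, -, -, -, -, -, -, -, -, -, h12⟩ := conf_r21
  rw [h] at h2
  exact h12 h2

/-- `r21` is in the class of `p53` -/
theorem r21_class : ∃ r : Equiv.Perm (Fin 3510), (∀ p, (r p : ℕ) = lk 12 p53 p) ∧ ∃ a ∈ Aut 3510 row, r21 = a * r * a⁻¹ := by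
  obtain ⟨y, hy, -, ht, a, ha, h⟩ := cover (el w21)
  have h0 : ∀ k, rho (com y) ^ k = 1 → r21 ^ k = 1 := fun k hk => by
    have h1 : r21 ^ k = (a * rho (com y) * a⁻¹) ^ k := by rw [← h]; rfl
    rw [h1, conj_pow, hk, mul_one, mul_inv_cancel]
  have h1 : rho (com y) ^ 21 = 1 := by
    have h2 : rho (com y) = a⁻¹ * r21 * a⁻¹⁻¹ := by
      rw [r21, h]; group
    rw [h2, conj_pow, r21_pow, mul_one, mul_inv_cancel]
  rcases kind y hy with hk | hk | hk | hk | hk
  · exfalso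
    refine hk _ ht ?_
    rw [show 15015 = 21 * 715 from rfl, pow_mul, h1, one_pow]
  · exfalso
    refine r21_ne.1 (h0 3 (pow_of_chk pow3 (P := p3) ?_))
    rw [hk] at ht ⊢
    exact ht
  · exfalso
    obtain ⟨p, hp⟩ := hk _ ht
    refine r21_ne.2.2.2 (a p) ?_
    show rho (el w21) (a p) = a p
    rw [h]
    show a (rho (com y) (a⁻¹ (a p))) = a p
    rw [show a⁻¹ (a p) = p from Equiv.symm_apply_apply _ p, hp]
  · exfalso
    refine r21_ne.2.2.1 (h0 13 (pow_of_chk pow45 ?_))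
    rw [← hk]
    exact ht
  · exact ⟨rho (com y), by rw [← hk]; exact ht, a, ha, h⟩

/-- **the configuration for the elements of order 21** -/
theorem conf21 {r b z : Equiv.Perm (Fin 3510)} (hr : ∀ p, (r p : ℕ) = lk 12 p53 p) (hb : b ∈ Aut 3510 row)
    (hz : z ∈ Aut 3510 row) (hz2 : z * z = 1) (hz1 : z ≠ 1) (hc : z * (b * r * b⁻¹) = (b * r * b⁻¹) * z) :
    Conf (b * r * b⁻¹) z := by
  obtain ⟨r', hr', a, ha, h21⟩ := r21_class
  have hrr : r' = r := perm_eq_of_tab hr' hr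
  subst hrr
  set k := b * a⁻¹ with hk
  have hkA : k ∈ Aut 3510 row := mul_mem hb (inv_mem ha)
  have h1 : b * r' * b⁻¹ = k * r21 * k⁻¹ := by rw [h21, hk]; group
  set z' := k⁻¹ * z * k with hz'
  have hz'A : z' ∈ Aut 3510 row := mul_mem (mul_mem (inv_mem hkA) hz) hkA
  have hz'2 : z' ^ 2 = 1 := by
    have e : z' ^ 2 = k⁻¹ * (z * z) * k := by rw [pow_two, hz']; group
    rw [e, hz2, mul_one, inv_mul_cancel]
  have hz'1 : z' ≠ 1 := by
    intro h
    apply hz1
    have e : z = k * z' * k⁻¹ := by rw [hz']; group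
    rw [e, h, mul_one, mul_inv_cancel]
  have hcz : z' * r21 = r21 * z' := by
    rw [h1] at hc
    calc z' * r21 = k⁻¹ * (z * (k * r21 * k⁻¹)) * k := by rw [hz']; group
      _ = k⁻¹ * ((k * r21 * k⁻¹) * z) * k := by rw [hc]
      _ = r21 * z' := by rw [hz']; group
  -- the centralizer
  have hr21A : r21 ∈ Aut 3510 row := rho_mem _
  let C : Subgroup (Equiv.Perm (Fin 3510)) := Aut 3510 row ⊓ Subgroup.centralizer ({r21} : Set _)
  have hC : Nat.card C ≤ 41 + 1 := by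
    refine cent_le bd53 hr ha (H := C) inf_le_left fun σ hσ => ?_
    rw [← h21]
    exact Subgroup.mem_centralizer_singleton_iff.1 (Subgroup.mem_inf.1 hσ).2
  have hcom : Commute tau9 r21 := tau_comm
  have o2 : orderOf tau9 = 2 := by
    have : Fact (Nat.Prime 2) := ⟨Nat.prime_two⟩
    exact orderOf_eq_prime (by rw [pow_two]; exact tau9_sq) tau9_ne
  have o3 : orderOf (tau9 * r21) = 42 := by
    rw [hcom.orderOf_mul_eq_mul_orderOf_of_coprime (by rw [order_r21, o2]; norm_num), order_r21, o2]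
  have hle : Subgroup.zpowers (tau9 * r21) ≤ C := by
    rw [Subgroup.zpowers_le]
    refine Subgroup.mem_inf.2 ⟨mul_mem tau9_mem hr21A, ?_⟩
    rw [Subgroup.mem_centralizer_singleton_iff]
    exact (hcom.mul_left (Commute.refl r21)).eq
  have heq : Subgroup.zpowers (tau9 * r21) = C :=
    Subgroup.eq_of_le_of_card_ge hle (by rw [Nat.card_zpowers, o3]; exact hC)
  have hzC : z' ∈ Subgroup.zpowers (tau9 * r21) := by
    rw [heq]
    exact Subgroup.mem_inf.2 ⟨hz'A, Subgroup.mem_centralizer_singleton_iff.2 hcz⟩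
  have h2 := pow_mem_zp Nat.prime_two (by rw [o3]; norm_num) hzC hz'2 hz'1
  rw [o3, show 42 / 2 = 21 from rfl, hcom.mul_pow, r21_pow, mul_one, show 21 = 2 * 10 + 1 from rfl, pow_succ, pow_mul,
    pow_two, tau9_sq, one_pow, one_mul] at h2
  have h3 : z' = tau9 := by
    obtain ⟨i, hi⟩ := Subgroup.mem_zpowers_iff.1 h2
    rcases Int.even_or_odd i with ⟨j, hj⟩ | ⟨j, hj⟩
    · exfalso
      apply tau9_ne
      rw [← hi, hj, ← two_mul, zpow_mul, zpow_two, ← pow_two, hz'2, one_zpow]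
    · rw [← hi, hj, zpow_add, zpow_mul, zpow_two, ← pow_two, hz'2, one_zpow, one_mul, zpow_one]
  have h4 : z = k * tau9 * k⁻¹ := by rw [← h3, hz']; group
  rw [h1, h4]
  exact conf_r21.conj hkA

end Cfsg.Agent.H895.RG.Fi22
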